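import Cfsg.Agent.H747.RowTwo
import Cfsg.Agent.H768.SelfFi
import Cfsg.Agent.H768.SelfTits
import Cfsg.Agent.QTNorm.SporJ4

/-!
# Rows of S5161: self-normalising Sylow 2-subgroups (helper768)

`RowTwo` for `Fi22`, `Fi23`, the Tits group, `J4`, `He`, `M24`.
-/

set_option autoImplicit false

namespace Cfsg.Agent.H768.RowSelf

open Cfsg Subgroup Cfsg.Agent.QTNorm Cfsg.Agent.H747

universe u

theorem row_of_selfN {K : Type u} [Group K] [Finite K] (h : SelfN K) : RowTwo K := by
  have hf : Fact (Nat.Prime 2) := ⟨Nat.prime_two⟩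
  obtain ⟨T⟩ : Nonempty (Sylow 2 K) := inferInstance
  exact Or.inl (OddRow.of_self T (h T))

theorem row_fi23 {K : Type u} [Group K] [Finite K] (h : Spor.IsoFi23 K) : RowTwo K := by
  obtain ⟨e⟩ := h
  have : Finite Spor.Fi23 := Finite.of_equiv K e.toEquiv
  exact row_of_selfN (SelfFi.selfN_fi23.congr e.symm)

theorem row_fi22 {K : Type u} [Group K] [Finite K] (h : Spor.IsoFi22 K) : RowTwo K := by
  obtain ⟨e⟩ := h
  have : Finite Spor.Fi22 := Finite.of_equiv K e.toEquiv
  exact row_of_selfN (SelfFi.selfN_fi22.congr e.symm)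

theorem row_tits {K : Type u} [Group K] [Finite K] (h : Lie.IsoTits K) : RowTwo K :=
  row_of_selfN (SelfTits.selfN_tits h)

theorem row_j4 {K : Type u} [Group K] [Finite K] (h : Spor.IsoJ4 K) : RowTwo K :=
  row_of_selfN (JFour.selfN_j4 h)

theorem row_he {K : Type u} [Group K] [Finite K] (h : Spor.IsoHe K) : RowTwo K :=
  row_of_selfN (selfN_he h)

theorem row_m24 {K : Type u} [Group K] [Finite K] (h : Spor.IsoM24 K) : RowTwo K :=
  row_of_selfN (selfN_m24 h)

end Cfsg.Agent.H768.RowSelf
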